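import Cfsg.Agent.Lib.Helper3.Stcs6

set_option autoImplicit false
set_option maxRecDepth 100000

namespace Cfsg.Agent.Lib.Helper3.U33

open Cfsg.Agent.Lib.Helper11 Cfsg.Agent.Lib.Helper3

set_option maxHeartbeats 0

noncomputable def ntl : List (List (ℕ × ℕ)) := [[], [(0xae37, 16), (0x860032, 8), (0x2060f, 4), (0x20333, 2), (0x1500141, 1), (0x2000002, 2), (0x8060402, 4), (0xa60032, 8), (0xa720, 16)], [(0x724a, 16), (0xf40034, 8), (0xa020c0c, 4), (0x12231203, 2), (0x41411104, 1), (0x2222000, 2), (0x4040e00, 4), (0xa40030, 8), (0x7b14, 16)], [(0x58df, 16), (0x3200a6, 8), (0x40d0806, 4), (0x3130202, 2), (0x4410150, 1), (0x0, 2), (0x6000002, 4), (0x320086, 8), (0x51c8, 16)], [(0x6d81, 16), (0x310034, 8), (0x5040e01, 4), (0x12210023, 2), (0x1444111, 1), (0x200220, 2), (0x20a0c0c, 4), (0x740024, 8), (0x6a30, 16)], [(0xb58c, 16), (0x2a0024, 8), (0x60a0802, 4), (0x32130000, 2), (0x11114114, 1), (0x20200000, 2), (0xc0a0a0a, 4), (0x2e002a, 8), (0xb85c,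 16)], [(0xb85c, 16), (0xae00e6, 8), (0xc010a0a, 4), (0x10310000, 2), (0x41440550, 1), (0x2020000, 2), (0x604000a, 4), (0xa00e8, 8), (0xb58c, 16)], [(0x69ae, 16), (0xc800a2, 8), (0xa080e04, 4), (0x20133212, 2), (0x445140, 1), (0x220000, 2), (0x80c00, 4), (0x800020, 8), (0x6f9a, 16)], [(0x6f9a, 16), (0xf00020, 8), (0x80d00, 4), (0x10213032, 2), (0x10015110, 1), (0x20000220, 2), (0xa080604, 4), (0x9000a2, 8), (0x69ae, 16)], [(0xf000, 16), (0x7200b4, 8), (0xf06020c, 4), (0x22310100, 2), (0x14011540, 1), (0x22000, 2), (0x2000008, 4), (0x5000b8, 8), (0xf000, 16)], [(0xf000, 16), (0xd800b8, 8), (0xd090104, 4), (0x132200, 2), (0x41401504, 1), (0x22200000, 2), (0x0, 4), (0x3000b4, 8), (0xf000, 16)]]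
noncomputable def INV : ℕ := 10492919913943136
abbrev deg : ℕ := 28

theorem setup : NetSetup ntl deg 5 INV 10 where
  hok := by decide +kernel
  hstab := by decide +kernel
  hlen := by decide +kernel
  h0 := by decide +kernel
  hINV := by decide +kernel
  hINV0 := by decide +kernel
  htriv := by decide +kernel

end Cfsg.Agent.Lib.Helper3.U33
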