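import Mathlib

set_option autoImplicit false
set_option maxRecDepth 100000

namespace Cfsg.Agent.Lib.Helper3.U33.L3

noncomputable def fc0_0 (i : ℕ) : ℕ := (nat_lit 0x70000ca0000060000e90000050000ea0000070000a90000040000c900000600008a0000030000aa00000500006900000200008900000400004a00000100006a00000300002900000000004900000200000a00000000002a000001000009)
noncomputable def sc0_0 (i : ℕ) : ℕ := (nat_lit 0x100000500000900000d00000a000006000002000700010000ffff0000ffff0000ffff0000ffff0000ffff0000ffff0000ffff)
noncomputable def nc0_0 (i : ℕ) : ℕ := (nat_lit 0x7000006000005000004000003000002000001000000)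
noncomputable def cc0_0 (i : ℕ) : ℕ := (nat_lit 0x500000c00000700000e00000300000800000600000b000001000004000004000007000000000000000002000003)

end Cfsg.Agent.Lib.Helper3.U33.L3
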