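import Cfsg.Agent.Lib.Helper3.U33.Main
import Cfsg.Agent.Lib.Helper3.MatL2
import Cfsg.Agent.Lib.Helper3.MatL3
import Cfsg.Agent.Lib.Helper3.F9

set_option autoImplicit false
set_option maxRecDepth 100000

namespace Cfsg.Agent.Lib.Helper3.U33

open Cfsg.Agent.Lib.Helper11 Cfsg.Agent.Lib.Helper3 Matrix

set_option maxHeartbeats 0

def AL : List (List (F9)) := [[⟨1, 1⟩, ⟨2, 1⟩, ⟨0, 0⟩], [⟨1, 1⟩, ⟨1, 2⟩, ⟨0, 0⟩], [⟨0, 0⟩, ⟨0, 0⟩, ⟨1, 0⟩]]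
def BL : List (List (F9)) := [[⟨2, 2⟩, ⟨0, 1⟩, ⟨0, 2⟩], [⟨2, 0⟩, ⟨1, 2⟩, ⟨2, 0⟩], [⟨1, 0⟩, ⟨2, 0⟩, ⟨1, 2⟩]]
def AtL : List (List (F9)) := [[⟨1, 1⟩, ⟨1, 1⟩, ⟨0, 0⟩], [⟨2, 1⟩, ⟨1, 2⟩, ⟨0, 0⟩], [⟨0, 0⟩, ⟨0, 0⟩, ⟨1, 0⟩]]
def BtL : List (List (F9)) := [[⟨2, 2⟩, ⟨2, 0⟩, ⟨1, 0⟩], [⟨0, 1⟩, ⟨1, 2⟩, ⟨2, 0⟩], [⟨0, 2⟩, ⟨2, 0⟩, ⟨1, 2⟩]]
def AcL : List (List (F9)) := [[⟨1, 2⟩, ⟨2, 2⟩, ⟨0, 0⟩], [⟨1, 2⟩, ⟨1, 1⟩, ⟨0, 0⟩], [⟨0, 0⟩, ⟨0, 0⟩, ⟨1, 0⟩]]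
def BcL : List (List (F9)) := [[⟨2, 1⟩, ⟨0, 2⟩, ⟨0, 1⟩], [⟨2, 0⟩, ⟨1, 1⟩, ⟨2, 0⟩], [⟨1, 0⟩, ⟨2, 0⟩, ⟨1, 1⟩]]
def frInvL : List (List (F9)) := [[⟨2, 1⟩, ⟨1, 2⟩, ⟨2, 0⟩], [⟨2, 2⟩, ⟨1, 2⟩, ⟨0, 2⟩], [⟨0, 0⟩, ⟨1, 2⟩, ⟨1, 1⟩]]
def frAL : List (F9) := [⟨0, 1⟩, ⟨2, 1⟩, ⟨1, 1⟩]
def frBL : List ℕ := [7, 9, 3]
def frI : Fin 28 := 0
def PT : ℕ := 0x81071261051041131321611661361631331221121211111810710161231621311801701501401510410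
def CS1 : ℕ := 0x3187582688882266558826444455
def CS2 : ℕ := 0x3584143187688258823143146371
def IMG1 : ℕ := 0xbe87bc2a2928960b2272abc81865b4331c7
def IMG2 : ℕ := 0x1056fa4125d45a3cc9c6c12b79a90c06cf6
def pt (i : ℕ) : List (F9) := ptOf F9.dec PT 4 3 i
def witJ : Fin 3 := 0
def witK : Fin 3 := 0

theorem chk1 : genChkW [AL] pt (fun i => F9.dec (tb CS1 4 i)) (tb IMG1 5) ntl 1 28 := by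
  decide +kernel
theorem chk2 : genChkW [BL] pt (fun i => F9.dec (tb CS2 4 i)) (tb IMG2 5) ntl 2 28 := by
  decide +kernel

end Cfsg.Agent.Lib.Helper3.U33
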